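import Groth.Agent.Pi1B.FEtPreGalois
import Mathlib.CategoryTheory.Galois.Decomposition

/-!
# Connected objects of the category of finite etale covers

`isConnected_iff` : for `Y` finite etale over a scheme, `Y` is a connected object of the (pre-)Galois
category `FEt.Cat X` if and only if the underlying topological space of `Y` is connected.
-/

set_option autoImplicit false
universe u v

open CategoryTheory CategoryTheory.Limits AlgebraicGeometry TopologicalSpace
open Groth.Agent.Pi1B.FEtPreGalois

namespace Groth.Agent.Pi1.H397.Conn

variable {X : Scheme.{u}}

/-- A finite etale cover with empty underlying space is an initial object. -/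
noncomputable def emptyInitial (Y : FEt.Cat X) [IsEmpty Y.left] : IsInitial Y :=
  IsInitial.ofUniqueHom
    (fun Z => MorphismProperty.Over.homMk (isInitialOfIsEmpty.to Z.left)
      (isInitialOfIsEmpty.hom_ext _ _))
    (fun Z m => by
      ext1
      exact isInitialOfIsEmpty.hom_ext _ _)

theorem isEmpty_of_isInitial (Y : FEt.Cat X) (h : IsInitial Y) : IsEmpty Y.left := by
  let E : FEt.Cat X := clopenObj Y ⊥ (by simp)
  have f : Y ⟶ E := h.to E
  have hE : IsEmpty E.left := ⟨fun x => (show ((⊥ : Y.left.Opens) : Scheme.{u}) from x).2⟩
  exact Function.isEmpty f.left

theorem isConnected_iff (Y : FEt.Cat X) :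
    PreGaloisCategory.IsConnected Y ↔ ConnectedSpace Y.left := by
  constructor
  · intro h
    have hne : Nonempty Y.left := by
      by_contra hc
      rw [not_nonempty_iff] at hc
      exact h.notInitial (emptyInitial Y)
    have hpre : PreconnectedSpace Y.left := by
      rw [preconnectedSpace_iff_clopen]
      intro W hW
      let W' : Y.left.Opens := ⟨W, hW.2⟩
      by_cases hemp : W = ∅
      · exact Or.inl hemp
      · right
        let i := clopenHom Y W' hW.1
        have hmono : Mono i := by
          have h1 : Mono ((MorphismProperty.Over.forget FEt.prop ⊤ X ⋙ Over.forget X).map i) :=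
            inferInstanceAs (Mono W'.ι)
          exact Functor.mono_of_mono_map _ h1
        have hi : IsIso i := by
          refine h.noTrivialComponent _ i ?_
          intro hini
          have := isEmpty_of_isInitial _ hini
          obtain ⟨w, hw⟩ := Set.nonempty_iff_ne_empty.mpr hemp
          exact this.false (⟨w, hw⟩ : W')
        have hi' : IsIso i.left := inferInstanceAs (IsIso
          ((MorphismProperty.Over.forget FEt.prop ⊤ X ⋙ Over.forget X).map i))
        have hsurj : Function.Surjective i.left := i.left.homeomorph.surjective
        have hr : Set.range W'.ι = Set.univ := Set.range_eq_univ.mpr hsurj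
        rw [Scheme.Opens.range_ι] at hr
        exact hr
    exact { toPreconnectedSpace := hpre, toNonempty := hne }
  · intro h
    refine ⟨fun hini => ?_, fun A i _ hA => ?_⟩
    · have := isEmpty_of_isInitial _ hini
      exact this.false (Classical.arbitrary _)
    · have hopen : IsOpenImmersion i.left := isOpenImmersion_left_of_mono i
      have hf : IsFinite i.left := (prop_left i).1
      have hcl : IsClosed (Set.range i.left) := i.left.isClosedMap.isClosed_range
      have hclopen : IsClopen (Set.range i.left) := ⟨hcl, i.left.isOpenEmbedding.isOpen_range⟩
      have hne : (Set.range i.left).Nonempty := by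
        by_contra hc
        rw [Set.not_nonempty_iff_eq_empty, Set.range_eq_empty_iff] at hc
        exact hA (emptyInitial A)
      have huniv := hclopen.eq_univ hne
      have : Epi i.left.base := by
        rw [TopCat.epi_iff_surjective]
        exact Set.range_eq_univ.mp huniv
      have : IsIso i.left := by
        have hs : Surjective i.left := ⟨Set.range_eq_univ.mp huniv⟩
        exact (isIso_iff_isOpenImmersion_and_epi_base i.left).mpr ⟨hopen, this⟩
      exact isIso_of_isIso_left i

end Groth.Agent.Pi1.H397.Conn
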