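import Mathlib.CategoryTheory.Galois.Decomposition

/-!
# Galois categories whose connected objects have bounded fibres

If the cardinalities of the fibres of the connected objects of a Galois category are bounded, one
connected object dominates all others.
-/

set_option autoImplicit false
universe u v w

open CategoryTheory CategoryTheory.Limits CategoryTheory.PreGaloisCategory

namespace Groth.Agent.Pi1.H397.Univ

variable {C : Type u} [Category.{v} C] [GaloisCategory C] (F : C ⥤ FintypeCat.{w})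
  [FiberFunctor F]

theorem exists_dominating (D : ℕ) (hD : ∀ Z : C, IsConnected Z → Nat.card (F.obj Z) ≤ D)
    (hne : ∃ Z : C, IsConnected Z) :
    ∃ Z₀ : C, IsConnected Z₀ ∧ ∀ Z : C, IsConnected Z → Nonempty (Z₀ ⟶ Z) := by
  classical
  let P : ℕ → Prop := fun n => ∃ Z : C, IsConnected Z ∧ Nat.card (F.obj Z) = n
  obtain ⟨Z₁, hZ₁⟩ := hne
  have hP : ∃ n, P n ∧ ∀ m, P m → m ≤ n := by
    refine ⟨Nat.findGreatest P D, Nat.findGreatest_spec (m := Nat.card (F.obj Z₁)) (hD Z₁ hZ₁)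
      ⟨Z₁, hZ₁, rfl⟩, ?_⟩
    rintro m ⟨Z, hZ, rfl⟩
    exact Nat.le_findGreatest (hD Z hZ) ⟨Z, hZ, rfl⟩
  obtain ⟨n, ⟨Z₀, hZ₀, hn⟩, hmax⟩ := hP
  refine ⟨Z₀, hZ₀, fun Z hZ => ?_⟩
  obtain ⟨a⟩ := nonempty_fiber_of_isConnected F Z₀
  obtain ⟨b⟩ := nonempty_fiber_of_isConnected F Z
  obtain ⟨T, i, t, ht, hT, -⟩ := fiber_in_connected_component F (Z₀ ⨯ Z)
    ((fiberBinaryProductEquiv F Z₀ Z).symm (a, b))
  let p : T ⟶ Z₀ := i ≫ prod.fst
  have hTne : Nonempty (F.obj T) := ⟨t⟩
  have hsurj : Function.Surjective (F.map p) := surjective_of_nonempty_fiber_of_isConnected F p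
  have hcard : Nat.card (F.obj T) = Nat.card (F.obj Z₀) := by
    refine le_antisymm ?_ (Nat.card_le_card_of_surjective _ hsurj)
    rw [hn]
    exact hmax _ ⟨T, hT, rfl⟩
  have hbij : Function.Bijective (F.map p) :=
    (Nat.bijective_iff_surjective_and_card _).mpr ⟨hsurj, hcard⟩
  have : IsIso (F.map p) := by
    rw [ConcreteCategory.isIso_iff_bijective]
    exact hbij
  have hp : IsIso p := isIso_of_reflects_iso p F
  exact ⟨inv p ≫ i ≫ prod.snd⟩

end Groth.Agent.Pi1.H397.Univ
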